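import Cfsg.Agent.H394.PG.ChainTZD
import Cfsg.Agent.H21.PG.Cases
import Cfsg.Agent.H435.PG.CaseE

/-!
# The uniform core of block G of S4884 (helper394, from helper21, helper435)
-/

set_option autoImplicit false

namespace Cfsg.Agent.H394.PG

open Cfsg.Agent.H21.PG

universe u v

theorem coreB : CoreB.{u, v} := coreB_of chainZ chainD Cfsg.Agent.H435.PG.caseE

theorem coreU : CoreU.{u, v} := coreU_of chainZ chainD

theorem caseH' : CaseH.{u, v} := caseH chainZ chainD

end Cfsg.Agent.H394.PG
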